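import Cfsg.Agent.H251.GeoCardB
import Cfsg.Agent.H907.MxJ
import Cfsg.Agent.H788.Rl.Core
import Cfsg.Agent.H951.Rl.ExtGL
import Cfsg.Agent.H922.OddDecomp

/-!
# S3691, PSL-11: the orders of three geometric subgroups of `SL_n(q)` (helper592)

* `card_le_mul` : a map with fibres in cosets;
* `card_decomp_sl` : the stabiliser of a decomposition into lines;
* `card_ext_sl_le` : the normaliser of a field of degree `n`;
* `card_symp_four` : the normaliser of a group of symplectic type of order `2 ^ 6` in dimension 4.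
-/

set_option autoImplicit false

namespace Cfsg.Agent.H592.Rl

open Cfsg Cfsg.Geo Matrix

/-- a map with fibres contained in cosets of `N` -/
theorem card_le_mul {G : Type*} [Group G] [Finite G] (S N : Subgroup G) {Y : Type*} [Finite Y] (f : S → Y)
    (h : ∀ a b : S, f a = f b → ((a : G)⁻¹ * b : G) ∈ N) : Nat.card S ≤ Nat.card Y * Nat.card N := by
  classical
  have hr : ∀ y : Y, ∃ a : S, (∃ b, f b = y) → f a = y := by
    intro y
    by_cases hy : ∃ b, f b = y
    · obtain ⟨b, hb⟩ := hy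
      exact ⟨b, fun _ => hb⟩
    · exact ⟨1, fun h => absurd h hy⟩
  choose r hr using hr
  have hN : ∀ a : S, ((r (f a) : G)⁻¹ * a : G) ∈ N := fun a => h _ _ (hr _ ⟨a, rfl⟩)
  have hinj : Function.Injective (fun a : S => ((f a, ⟨_, hN a⟩) : Y × N)) := by
    intro a b hab
    have h1 : f a = f b := congrArg Prod.fst hab
    have h2 : ((r (f a) : G)⁻¹ * a : G) = (r (f b) : G)⁻¹ * b := congrArg (fun z => (z.2 : G)) hab
    rw [h1] at h2
    exact Subtype.ext (mul_left_cancel h2)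
  have h1 := Nat.card_le_card_of_injective _ hinj
  rwa [Nat.card_prod] at h1

section decomp

variable {F : Type} [Field F] [Finite F] {n : ℕ}

/-- the order of the stabiliser in `SL` of a decomposition into lines -/
theorem card_decomp_sl (hn : 0 < n) {t : ℕ} {D : Fin t → Submodule F (Fin n → F)} (hD : IsMDecomposition 1 D) :
    Nat.card (decompositionStabilizer D ⊓ specialLinear (Fin n) F : Subgroup (GL (Fin n) F)) ≤
      (Nat.card F - 1) ^ (n - 1) * n.factorial := by
  classical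
  have := Fintype.ofFinite F
  have htn : t = n := by
    have := H922.mul_eq_card hD
    rwa [Fintype.card_fin, mul_one] at this
  subst htn
  obtain ⟨t, rfl⟩ : ∃ s, t = s + 1 := ⟨t - 1, by omega⟩
  obtain ⟨ψ, hψ⟩ := H907.Mx.exists_permHom hD
  have hv : ∀ i, ∃ v ∈ D i, v ≠ 0 ∧ ∀ w ∈ D i, ∃ c : F, c • v = w := by
    intro i
    obtain ⟨v, hv0, hv⟩ := finrank_eq_one_iff'.1 (hD.finrank_eq i)
    refine ⟨v, v.2, fun h0 => hv0 (Subtype.ext h0), fun w hw => ?_⟩
    obtain ⟨c, hc⟩ := hv ⟨w, hw⟩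
    exact ⟨c, congrArg Subtype.val hc⟩
  choose v hvm hv0 hv using hv
  have hc : ∀ (x : decompositionStabilizer D) (i : Fin (t + 1)), ∃ c : Fˣ,
      Matrix.toLin' ((x : GL (Fin (t + 1)) F) : Matrix (Fin (t + 1)) (Fin (t + 1)) F) (v i) = (c : F) • v (ψ x i) := by
    intro x i
    have h1 : Matrix.toLin' ((x : GL (Fin (t + 1)) F) : Matrix (Fin (t + 1)) (Fin (t + 1)) F) (v i) ∈ D (ψ x i) := by
      rw [← hψ x i]
      exact Submodule.mem_map_of_mem (hvm i)
    obtain ⟨c, hc⟩ := hv _ _ h1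
    have hc0 : c ≠ 0 := by
      rintro rfl
      rw [zero_smul, Matrix.toLin'_apply] at hc
      apply hv0 i
      have h2 : ((x : GL (Fin (t + 1)) F)⁻¹ : GL (Fin (t + 1)) F).1 *ᵥ
          (((x : GL (Fin (t + 1)) F) : Matrix (Fin (t + 1)) (Fin (t + 1)) F) *ᵥ v i) = v i := by
        rw [Matrix.mulVec_mulVec, Units.inv_mul, Matrix.one_mulVec]
      rw [← h2, ← hc, Matrix.mulVec_zero]
    exact ⟨Units.mk0 c hc0, hc.symm⟩
  choose c hc using hc
  -- the basis
  have hli : LinearIndependent F v := hD.indep.linearIndependent D hvm hv0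
  let b : Module.Basis (Fin (t + 1)) F (Fin (t + 1) → F) :=
    basisOfLinearIndependentOfCardEqFinrank hli (by rw [Module.finrank_fintype_fun_eq_card])
  have hb : ∀ i, b i = v i := fun i => by
    change basisOfLinearIndependentOfCardEqFinrank hli _ i = v i
    rw [coe_basisOfLinearIndependentOfCardEqFinrank]
  -- determinants
  have hdet : ∀ (z : GL (Fin (t + 1)) F) (d : Fin (t + 1) → F), z ∈ specialLinear (Fin (t + 1)) F →
      (∀ i, (z : Matrix (Fin (t + 1)) (Fin (t + 1)) F) *ᵥ v i = d i • v i) → ∏ i, d i = 1 := by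
    intro z d hz hd
    have h1 : LinearMap.toMatrix b b (Matrix.toLin' (z : Matrix (Fin (t + 1)) (Fin (t + 1)) F)) =
        Matrix.diagonal d := by
      ext i j
      rw [LinearMap.toMatrix_apply, Matrix.toLin'_apply, hb, hd, ← hb, map_smul, Module.Basis.repr_self,
        Finsupp.smul_apply, smul_eq_mul, Finsupp.single_apply, Matrix.diagonal_apply]
      by_cases hij : j = i
      · subst hij; simp
      · rw [if_neg hij, if_neg (Ne.symm hij), mul_zero]
    have h2 := congrArg Matrix.det h1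
    rw [LinearMap.det_toMatrix, LinearMap.det_toLin', Matrix.det_diagonal] at h2
    rw [← h2]
    exact H788.Rl.mem_sl hz
  let X : Subgroup (GL (Fin (t + 1)) F) := decompositionStabilizer D ⊓ specialLinear (Fin (t + 1)) F
  have hinj : Function.Injective (fun x : X =>
      ((fun i : Fin t => c ⟨x, x.2.1⟩ i.succ, ψ ⟨x, x.2.1⟩) : (Fin t → Fˣ) × Equiv.Perm (Fin (t + 1)))) := by
    intro x y hxy
    have h1 : ∀ i : Fin t, c ⟨x, x.2.1⟩ i.succ = c ⟨y, y.2.1⟩ i.succ := fun i => congrFun (congrArg Prod.fst hxy) i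
    have h2 : ψ ⟨x, x.2.1⟩ = ψ ⟨y, y.2.1⟩ := congrArg Prod.snd hxy
    have h0 : c ⟨x, x.2.1⟩ 0 = c ⟨y, y.2.1⟩ 0 := by
      have h3 := hdet ((x : GL (Fin (t + 1)) F)⁻¹ * y)
        (fun i => (c ⟨y, y.2.1⟩ i : F) * ((c ⟨x, x.2.1⟩ i)⁻¹ : Fˣ)) (Subgroup.mul_mem _ (Subgroup.inv_mem _ x.2.2) y.2.2)
        (by
          intro i
          have h4 := hc ⟨y, y.2.1⟩ i
          have h5 := hc ⟨x, x.2.1⟩ i
          rw [Matrix.toLin'_apply] at h4 h5
          have h6 : (((x : GL (Fin (t + 1)) F)⁻¹ : GL (Fin (t + 1)) F) : Matrix (Fin (t + 1)) (Fin (t + 1)) F) *ᵥ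
              v (ψ ⟨x, x.2.1⟩ i) = (((c ⟨x, x.2.1⟩ i)⁻¹ : Fˣ) : F) • v i := by
            have h7 : v (ψ ⟨x, x.2.1⟩ i) = (((c ⟨x, x.2.1⟩ i)⁻¹ : Fˣ) : F) •
                (((x : GL (Fin (t + 1)) F) : Matrix (Fin (t + 1)) (Fin (t + 1)) F) *ᵥ v i) := by
              change _ = (((c ⟨x, x.2.1⟩ i)⁻¹ : Fˣ) : F) •
                (((⟨(x : GL (Fin (t + 1)) F), x.2.1⟩ : decompositionStabilizer D) : GL (Fin (t + 1)) F) :
                  Matrix (Fin (t + 1)) (Fin (t + 1)) F) *ᵥ v i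
              rw [h5, smul_smul, Units.inv_mul, one_smul]
            rw [h7, Matrix.mulVec_smul, Matrix.mulVec_mulVec, ← Units.val_mul, inv_mul_cancel, Units.val_one,
              Matrix.one_mulVec]
          rw [Units.val_mul, ← Matrix.mulVec_mulVec]
          change _ *ᵥ ((((⟨(y : GL (Fin (t + 1)) F), y.2.1⟩ : decompositionStabilizer D) : GL (Fin (t + 1)) F) :
                  Matrix (Fin (t + 1)) (Fin (t + 1)) F) *ᵥ v i) = _
          rw [h4, Matrix.mulVec_smul, ← h2, h6, smul_smul])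
      rw [Fin.prod_univ_succ] at h3
      have h4 : ∏ i : Fin t, ((c ⟨y, y.2.1⟩ i.succ : F) * ((c ⟨x, x.2.1⟩ i.succ)⁻¹ : Fˣ)) = 1 := by
        apply Finset.prod_eq_one
        intro i _
        rw [h1 i, Units.mul_inv]
      rw [h4, mul_one] at h3
      have h5 : c ⟨y, y.2.1⟩ 0 * (c ⟨x, x.2.1⟩ 0)⁻¹ = 1 := Units.ext (by rw [Units.val_mul]; exact h3)
      exact (mul_inv_eq_one.1 h5).symm
    have h1' : c ⟨x, x.2.1⟩ = c ⟨y, y.2.1⟩ := by
      funext i
      refine Fin.cases h0 h1 i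
    apply Subtype.ext
    apply Units.ext
    apply Matrix.toLin'.injective
    have h3 : (⨆ i, D i) ≤ LinearMap.eqLocus
        (Matrix.toLin' (((⟨(x : GL (Fin (t + 1)) F), x.2.1⟩ : decompositionStabilizer D) : GL (Fin (t + 1)) F) :
          Matrix (Fin (t + 1)) (Fin (t + 1)) F))
        (Matrix.toLin' (((⟨(y : GL (Fin (t + 1)) F), y.2.1⟩ : decompositionStabilizer D) : GL (Fin (t + 1)) F) :
          Matrix (Fin (t + 1)) (Fin (t + 1)) F)) := by
      rw [iSup_le_iff]
      intro i w hw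
      rw [LinearMap.mem_eqLocus]
      obtain ⟨a, rfl⟩ := hv i w hw
      rw [map_smul, map_smul, hc, hc, h1', h2]
    rw [hD.iSup_eq_top] at h3
    apply LinearMap.ext
    intro w
    have h4 := h3 (Submodule.mem_top (x := w))
    rwa [LinearMap.mem_eqLocus] at h4
  refine (Nat.card_le_card_of_injective _ hinj).trans ?_
  rw [Nat.card_prod, Nat.card_fun, Nat.card_units, Nat.card_eq_fintype_card (α := Equiv.Perm (Fin (t + 1))),
    Fintype.card_perm, Fintype.card_fin, Nat.card_eq_fintype_card (α := Fin t), Fintype.card_fin,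
    Nat.add_sub_cancel]

end decomp

section ext

variable {F : Type} [Field F] [Fintype F] {n : ℕ}

theorem two_mul_le_factorial (hn : 3 ≤ n) : n * 2 ≤ n.factorial := by
  obtain ⟨m, rfl⟩ : ∃ m, n = m + 1 := ⟨n - 1, by omega⟩
  rw [Nat.factorial_succ]
  refine Nat.mul_le_mul_left _ ?_
  have h1 := Nat.self_le_factorial m
  omega

/-- the normaliser in `SL_n(q)` of a field of degree `n` -/
theorem card_ext_sl_le (hn : 3 ≤ n) {K : Subalgebra F (Matrix (Fin n) (Fin n) F)} (hK : IsFieldSubalgebra n K) :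
    Nat.card (subalgebraNormalizer K ⊓ specialLinear (Fin n) F : Subgroup (GL (Fin n) F)) ≤
      Fintype.card F ^ (n - 1) * n.factorial := by
  haveI : Nonempty (Fin n) := ⟨⟨0, by omega⟩⟩
  have hq : 2 ≤ Fintype.card F := Fintype.one_lt_card
  have h1 := Cfsg.Agent.H951.Rl.card_ext_sl_prod hK
  set a := Nat.card (subalgebraNormalizer K ⊓ specialLinear (Fin n) F : Subgroup (GL (Fin n) F)) with ha
  have h2 : (∏ i : Fin (Fintype.card (Fin n) / n),
        ((Fintype.card F ^ n) ^ (Fintype.card (Fin n) / n) - (Fintype.card F ^ n) ^ (i : ℕ))) =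
      Fintype.card F ^ n - 1 := by
    rw [Fintype.card_fin, Nat.div_self (by omega)]
    simp
  rw [h2] at h1
  set q := Fintype.card F with hqd
  have h3 : q ^ n = q * q ^ (n - 1) := by
    rw [← pow_succ', Nat.sub_add_cancel (by omega)]
  have h4 : 1 ≤ q ^ (n - 1) := Nat.one_le_pow _ _ (by omega)
  obtain ⟨b, hb⟩ : ∃ b, q = b + 1 := ⟨q - 1, by omega⟩
  have h5 : q ^ n - 1 ≤ 2 * q ^ (n - 1) * (q - 1) := by
    rw [h3]
    set c := q ^ (n - 1)
    have h6 : q - 1 = b := by omega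
    rw [h6, hb]
    have h7 : 1 ≤ b := by omega
    have h8 : c ≤ c * b := Nat.le_mul_of_pos_right c h7
    have h9 : (b + 1) * c = c * b + c := by ring
    have h10 : 2 * c * b = c * b + c * b := by ring
    omega
  have h6 : a * (q - 1) ≤ (n * 2 * q ^ (n - 1)) * (q - 1) := by
    refine h1.trans ((Nat.mul_le_mul_left n h5).trans (le_of_eq (by ring)))
  have h7 := Nat.le_of_mul_le_mul_right h6 (by omega)
  refine h7.trans ?_
  rw [mul_comm]
  exact Nat.mul_le_mul_left _ (two_mul_le_factorial hn)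

end ext

section symp

variable {F : Type} [Field F] [Fintype F]

/-- the scalars in `SL` -/
theorem card_scalars_sl (n : ℕ) (hn : 0 < n) :
    Nat.card (scalars (Fin n) F ⊓ specialLinear (Fin n) F : Subgroup (GL (Fin n) F)) ≤ n := by
  haveI : Nonempty (Fin n) := ⟨⟨0, hn⟩⟩
  have h1 := Cfsg.Agent.H788.Rl.card_ker_le (H := scalars (Fin n) F ⊓ specialLinear (Fin n) F) inf_le_right
    (1 : (scalars (Fin n) F ⊓ specialLinear (Fin n) F : Subgroup (GL (Fin n) F)) →* (Multiplicative (ZMod 1)))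
    (fun h _ => h.2.1)
  rw [Fintype.card_fin] at h1
  refine le_trans (le_of_eq ?_) h1
  rw [show (1 : (scalars (Fin n) F ⊓ specialLinear (Fin n) F : Subgroup (GL (Fin n) F)) →*
    (Multiplicative (ZMod 1))).ker = ⊤ from MonoidHom.ker_one, Subgroup.card_top]

/-- the normaliser in `SL_4(q)` of a group of symplectic type of order `2 ^ 6` -/
theorem card_symp_four {R : Subgroup (GL (Fin 4) F)} (hR : IsLinearSymplecticTypeData 2 R)
    (hZ : Nat.card (Subgroup.center R) = 4) (hc : Nat.card R = 2 ^ (2 + 2 * 2)) :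
    Nat.card (subgroupNormalizer R ⊓ specialLinear (Fin 4) F : Subgroup (GL (Fin 4) F)) ≤ 46080 := by
  classical
  haveI : Fact (Nat.Prime 2) := ⟨Nat.prime_two⟩
  have ht : H920.IsType 2 2 R := Or.inr ⟨rfl, hZ, hc⟩
  obtain ⟨C⟩ := H920.exists_coord hR.absIrred (H920.comm_of_type hR.symplecticType hR.absIrred ht) Nat.prime_two
    (by norm_num) (H920.pow_of_type hR.symplecticType hR.absIrred ht) (H920.card_of_type hR.symplecticType hR.absIrred ht)
  let S : Subgroup (GL (Fin 4) F) := subgroupNormalizer R ⊓ specialLinear (Fin 4) F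
  -- the kernel
  let K : Subgroup (GL (Fin 4) F) :=
    { carrier := {g | C.Ind g 1 ∧ g ∈ specialLinear (Fin 4) F}
      one_mem' := ⟨H920.Coord.Ind.one C, Subgroup.one_mem _⟩
      mul_mem' := fun {a b} ha hb => ⟨by simpa using ha.1.mul hb.1, Subgroup.mul_mem _ ha.2 hb.2⟩
      inv_mem' := fun {a} ha => ⟨ha.1.inv (mul_one _), Subgroup.inv_mem _ ha.2⟩ }
  have h1 : ∀ g : S, ∃ A : Matrix.symplecticGroup (Fin 2) (ZMod 2), C.Ind (g : GL (Fin 4) F) A := by
    intro g
    obtain ⟨A, hA, h⟩ := C.exists_ind_of_mem g.2.1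
    exact ⟨⟨A, hA⟩, h⟩
  choose A hA using h1
  have h2 : Nat.card S ≤ Nat.card (Matrix.symplecticGroup (Fin 2) (ZMod 2)) * Nat.card K := by
    refine card_le_mul S K A fun a b hab => ⟨?_, Subgroup.mul_mem _ (Subgroup.inv_mem _ a.2.2) b.2.2⟩
    have h3 := (hA a).invS.mul (hA b)
    rw [hab, ← Submonoid.coe_mul] at h3
    have h4 : (A b)⁻¹ * A b = 1 := inv_mul_cancel _
    rw [h4] at h3
    exact h3
  have h3 : ∀ g : K, ∃ x : R, (x : GL (Fin 4) F)⁻¹ * g ∈ scalars (Fin 4) F := fun g =>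
    C.mem_of_ind_one hR.absIrred g.2.1
  choose x hx using h3
  have h4 : Nat.card K ≤ Nat.card (Fin 2 ⊕ Fin 2 → ZMod 2) *
      Nat.card (scalars (Fin 4) F ⊓ specialLinear (Fin 4) F : Subgroup (GL (Fin 4) F)) := by
    refine card_le_mul K _ (fun g => C.φ (x g)) fun a b hab =>
      ⟨?_, Subgroup.mul_mem _ (Subgroup.inv_mem _ a.2.2) b.2.2⟩
    have h5 : C.φ ((x a)⁻¹ * x b) = 0 := by
      have h6 := C.map_mul (x a) ((x a)⁻¹ * x b)
      rw [mul_inv_cancel_left] at h6
      have hab' : C.φ (x a) = C.φ (x b) := hab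
      rw [hab'] at h6
      have h7 : C.φ (x b) + C.φ ((x a)⁻¹ * x b) = C.φ (x b) + 0 := by rw [← h6, add_zero]
      exact add_left_cancel h7
    have h6 := (C.ker_iff _).1 h5
    have h7 : (a : GL (Fin 4) F)⁻¹ * b = ((x a : GL (Fin 4) F)⁻¹ * a)⁻¹ *
        ((((x a)⁻¹ * x b : R) : GL (Fin 4) F) * ((x b : GL (Fin 4) F)⁻¹ * b)) := by
      rw [Subgroup.coe_mul, Subgroup.coe_inv]
      group
    rw [h7]
    exact Subgroup.mul_mem _ (Subgroup.inv_mem _ (hx a)) (Subgroup.mul_mem _ h6 (hx b))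
  have h5 := card_scalars_sl (F := F) 4 (by norm_num)
  have h6 : Nat.card (Matrix.symplecticGroup (Fin 2) (ZMod 2)) = 720 := by
    rw [LieClassical.SympCount.card_symplecticGroup, ZMod.card, Finset.prod_range_succ, Finset.prod_range_succ,
      Finset.prod_range_zero]
    norm_num
  have h7 : Nat.card (Fin 2 ⊕ Fin 2 → ZMod 2) = 16 := by
    rw [Nat.card_fun, Nat.card_zmod, Nat.card_eq_fintype_card]
    simp
  rw [h6] at h2
  rw [h7] at h4
  have h8 : Nat.card S ≤ 720 * (16 * 4) := h2.trans (Nat.mul_le_mul_left _ (h4.trans (Nat.mul_le_mul_left _ h5)))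
  exact h8.trans (by norm_num)

end symp

end Cfsg.Agent.H592.Rl
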