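import Cfsg.Agent.H851.Rl.PDefs
import Cfsg.Agent.H915.SLCases
import Cfsg.Agent.H304.PpdClass
import Cfsg.Agent.H592.Rl.ClassCard

/-!
# S3691, PSL-11: `classes9` (helper592)
-/

set_option autoImplicit false
set_option linter.style.haveILetI false

namespace Cfsg.Agent.H592.Rl

open Cfsg Cfsg.Geo Matrix Module Cfsg.Agent.H454.Reg Cfsg.Agent.H728.DghpNum Cfsg.Agent.H304.Ppd
  Cfsg.Agent.H251.GeoCard
open scoped MatrixGroups

variable {F : Type} [Field F] [Fintype F] {p f n k : ℕ}

theorem le_of_div {q e u : ℕ} (hP : Ppd q e u) {m : ℕ} (h : Div u q m) : e ≤ m := by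
  obtain ⟨i, h1, h2, h3⟩ := h
  have := Nat.le_of_dvd h1 ((hP.dvd_iff i).mp h3)
  omega

/-- PSL-11: the classes, `3 ≤ n ≤ 9` -/
theorem classes9 (hn : 3 ≤ n) (hn9 : n ≤ 9) (hk : n ≤ k + 1) (hkn : k ≤ n) (hp : p.Prime) (hF : Fintype.card F = p ^ f)
    {u : ℕ} (hu : u.Prime) (hord : orderOf ((p : ℕ) : ZMod u) = f * k) {R : Subgroup (GL (Fin n) F)}
    (hR : R ≤ specialLinear (Fin n) F) (hne : ¬ specialLinear (Fin n) F ≤ R) (hud : u ∣ Nat.card R) :
    (k + 1 = n ∧ ∃ W : Submodule F (Fin n → F), (finrank F W = 1 ∨ finrank F W + 1 = n) ∧ R ≤ subspaceStabilizer W) ∨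
    Cfsg.Agent.H851.Rl.Out k R ∨
    (k + 1 = n ∧ u = n ∧ Nat.card R ≤ Fintype.card F ^ (n - 1) * n.factorial) ∨
    (n = 4 ∧ Nat.card R ≤ 46080) ∨
    ∃ H : Subgroup (GL (Fin n) F), IsMaximalIn (specialLinear (Fin n) F) H ∧ R ≤ H ∧ InLinearResidualClass H := by
  classical
  haveI : Nonempty (Fin n) := ⟨⟨0, by omega⟩⟩
  haveI : Fact u.Prime := ⟨hu⟩
  have hq : 2 ≤ Fintype.card F := Fintype.one_lt_card
  have hf : 1 ≤ f := by
    rcases Nat.eq_zero_or_pos f with h | h
    · rw [hF, h, pow_zero] at hq; omega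
    · exact h
  have hk1 : 1 ≤ k := by omega
  have hfk : 0 < f * k := Nat.mul_pos hf hk1
  have hup : ¬ u ∣ p := by
    intro h
    have h1 : ((p : ℕ) : ZMod u) = 0 := (ZMod.natCast_eq_zero_iff p u).2 h
    rw [h1, orderOf_zero] at hord
    omega
  have hP0 : Ppd p (f * k) u := ⟨hu, hord, hup⟩
  have hP : Ppd (Fintype.card F) k u := by
    have h1 := hP0.pow f (by omega)
    rw [← hF, Nat.gcd_comm, Nat.gcd_mul_right_right, Nat.mul_div_cancel_left _ hf] at h1
    exact h1
  have hlt : k < u := hP.lt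
  have hqd : ¬ u ∣ Fintype.card F - 1 := by
    intro h
    have := (hP.dvd_iff 1).mp (by rwa [pow_one])
    exact absurd (Nat.le_of_dvd one_pos this) (by omega)
  have hFd : ¬ u ∣ Nat.card F := by rw [Nat.card_eq_fintype_card]; exact hP.ndvd
  -- an element of order `u`
  obtain ⟨x, hxu⟩ := exists_prime_orderOf_dvd_card' u hud
  have hxu' : orderOf (x : GL (Fin n) F) = u := by rw [Subgroup.orderOf_coe, hxu]
  -- a maximal subgroup
  obtain ⟨H, hH, hRH⟩ := H905.exists_isMaximalIn_of_lt (lt_of_le_not_ge hR hne)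
  have hxH : (x : GL (Fin n) F) ∈ H := hRH x.2
  have hcardle : ∀ {Y : Subgroup (GL (Fin n) F)}, R ≤ Y → Nat.card R ≤ Nat.card Y := fun {Y} h =>
    Nat.le_of_dvd Nat.card_pos (Subgroup.card_dvd_of_le h)
  have hdvd : ∀ {Y : Subgroup (GL (Fin n) F)}, R ≤ Y → u ∣ Nat.card Y := fun {Y} h =>
    hud.trans (Subgroup.card_dvd_of_le h)
  rcases H915.sl_cases hn hH with ⟨W, h0, h1, h⟩ | ⟨t, m, D, htm, hD, -, -, h⟩ |
    ⟨r, K, hr, hrn, hK, h⟩ | ⟨n₁, n₂, e, P, h1, h2, h3, -, h⟩ | ⟨F₀, r, P, hr, hF₀, h⟩ |
    ⟨r, k', p', e, R₀, hR₀, hr, hro, -, hk', hnk, -, hmin, hZ, hc, h⟩ | ⟨k', R₀, hR₀, hnk, -, -, hZ, hc, h⟩ |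
    ⟨m, t, e, P, hm, ht, hmt, h⟩ | ⟨g, hg, hne', h4, h⟩ | ⟨σ, g, hg, h⟩ | ⟨-, Q, hQ, h⟩ | h
  · -- subspaces
    left
    have hM : R ≤ subspaceStabilizer W := hRH.trans (h.le.trans inf_le_left)
    have h3 : 0 < finrank F W := Nat.pos_of_ne_zero fun h => h0 (Submodule.finrank_eq_zero.mp h)
    have h4 : finrank F W < n := by
      have := Submodule.finrank_lt h1
      rwa [Module.finrank_fintype_fun_eq_card, Fintype.card_fin] at this
    rcases le_finrank_of_mem_stabilizer hP hxu' (mem_of_subspaceStabilizer (hM x.2)) with h5 | h5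
    · exact ⟨by omega, W, Or.inr (by omega), hM⟩
    · rw [Fintype.card_fin] at h5
      exact ⟨by omega, W, Or.inl (by omega), hM⟩
  · -- decompositions
    right; right; left
    have hM : R ≤ decompositionStabilizer D := hRH.trans (h.le.trans inf_le_left)
    have ht := hD.two_le
    have hm := hD.pos
    rcases decomp hD hu hFd (hdvd hM) with h5 | h5
    · have h6 : t ≤ n := by rw [← htm]; exact Nat.le_mul_of_pos_right t hm
      have h7 : t = n := by omega
      have h8 : m = 1 := by
        rw [h7] at htm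
        exact Nat.eq_of_mul_eq_mul_left (by omega : 0 < n) (by rw [htm, mul_one])
      rw [h8] at hD
      refine ⟨by omega, by omega, ?_⟩
      refine (hcardle (hRH.trans h.le)).trans ((card_decomp_sl (by omega) hD).trans ?_)
      rw [Nat.card_eq_fintype_card]
      exact Nat.mul_le_mul_right _ (Nat.pow_le_pow_left (Nat.sub_le _ _) _)
    · rw [Nat.card_eq_fintype_card] at h5
      have h6 := le_of_div hP h5
      have : 2 * m ≤ n := by rw [← htm]; exact Nat.mul_le_mul_right m ht
      omega
  · -- fields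
    right
    have hM : R ≤ subalgebraNormalizer K := hRH.trans (h.le.trans inf_le_left)
    rcases extension hr hK hu hFd (hdvd hM) with h5 | ⟨i, h5, h6, h8⟩
    · right; left
      have h6 : r ≤ n := Nat.le_of_dvd (by omega) hrn
      have h7 : r = n := by omega
      subst h7
      refine ⟨by omega, h5, (hcardle (hRH.trans h.le)).trans (card_ext_sl_le hn hK)⟩
    · left; left
      rw [Nat.card_eq_fintype_card, ← pow_mul, hP.dvd_iff] at h8
      rw [Fintype.card_fin] at h6
      have h9 : r * i ≤ n := (Nat.mul_le_mul_left r h6).trans (Nat.mul_div_le n r)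
      have h10 : 0 < r * i := Nat.mul_pos hr.pos (by omega)
      obtain ⟨j, hj⟩ := h8
      have hj1 : j = 1 := by
        have hj0 : 0 < j := by
          rcases Nat.eq_zero_or_pos j with h | h
          · rw [h, mul_zero] at hj; omega
          · exact h
        by_contra hj1
        have : k * 2 ≤ k * j := Nat.mul_le_mul_left _ (by omega)
        omega
      rw [hj1, mul_one] at hj
      exact ⟨r, K, hr, by rwa [Fintype.card_fin], ⟨i, hj.symm⟩, hK, hM⟩
  · -- tensor products
    exfalso
    have hM : R ≤ tensorProductSubgroup n₁ n₂ e P := hRH.trans (h.le.trans inf_le_left)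
    have h6 := tensor _ _ hu hFd (hdvd hM)
    rw [Nat.card_eq_fintype_card] at h6
    have h7 := le_of_div hP h6
    rw [max_eq_right h2.le] at h7
    have : 2 * n₂ ≤ n := by rw [← h3]; exact Nat.mul_le_mul_right n₂ h1
    omega
  · -- subfields
    exfalso
    have hM : R ≤ subfieldSubgroup F₀ P := hRH.trans (h.le.trans inf_le_left)
    have h1 : Nat.card F₀ ∣ p ^ f := by
      rw [← hF, hF₀]
      exact dvd_pow_self _ hr.ne_zero
    obtain ⟨g, -, hg⟩ := (Nat.dvd_prime_pow hp).1 h1
    have h2 : g * r = f := by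
      have h3 : p ^ (g * r) = p ^ f := by rw [pow_mul, ← hg, ← hF₀, hF]
      exact Nat.pow_right_injective hp.two_le h3
    rcases subfield hu hFd (hdvd hM) with h3 | ⟨i, h3, h4, h5⟩
    · rw [Nat.card_eq_fintype_card] at h3
      exact hqd h3
    · rw [hg, ← pow_mul, hP0.dvd_iff, ← h2, mul_assoc] at h5
      have hg0 : 0 < g := by
        rcases Nat.eq_zero_or_pos g with h | h
        · rw [h, zero_mul] at h2; omega
        · exact h
      have h6 := Nat.dvd_of_mul_dvd_mul_left hg0 h5
      have h7 := Nat.le_of_dvd h3 h6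
      rw [Fintype.card_fin] at h4
      have h8 : 2 * k ≤ r * k := Nat.mul_le_mul_right k hr.two_le
      omega
  · -- groups of symplectic type, `r` odd
    exfalso
    have hM : R ≤ subgroupNormalizer R₀ := hRH.trans (h.le.trans inf_le_left)
    have hno : Odd n := by rw [hnk]; exact hro.pow
    have hru : u ≠ r := by
      rintro h6
      obtain ⟨h1, h2, h3, h4, -⟩ := hmin
      rw [← h3, ← h6] at h4
      exact hqd h4
    rcases symplecticType hR₀.symplecticType hR₀.absIrred (Or.inl ⟨hro, hZ, hc⟩) hk' hu (hdvd hM) with h1 | h1 | h1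
    · exact hru h1
    · rw [Nat.card_eq_fintype_card] at h1
      exact hqd h1
    · rw [← hnk] at h1
      have h2 : u = n ∨ u = n + 1 := by omega
      rcases h2 with h2 | h2
      · have h3 : r ∣ u := by rw [h2, hnk]; exact dvd_pow_self r (by omega)
        exact hru ((Nat.prime_dvd_prime_iff_eq hr hu).1 h3).symm
      · have h3 : Even u := by rw [h2]; exact hno.add_one
        have h4 := (hu.even_iff).mp h3
        omega
  · -- groups of symplectic type, `r = 2`
    right; right; right; left
    have hM : R ≤ subgroupNormalizer R₀ := hRH.trans (h.le.trans inf_le_left)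
    have hk2 : 2 ≤ k' := by
      rcases k' with _ | _ | k'
      · rw [hnk] at hn; norm_num at hn
      · rw [hnk] at hn; norm_num at hn
      · omega
    have hk3 : k' < 4 := by
      by_contra hcon
      have : 2 ^ 4 ≤ 2 ^ k' := Nat.pow_le_pow_right (by norm_num) (by omega)
      omega
    rcases symplecticType hR₀.symplecticType hR₀.absIrred (Or.inr ⟨rfl, hZ, hc⟩) (by omega) hu (hdvd hM) with h1 | h1 | h1
    · omega
    · rw [Nat.card_eq_fintype_card] at h1
      exact absurd h1 hqd
    · have hk4 : k' = 2 ∨ k' = 3 := by omega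
      rcases hk4 with rfl | rfl
      · norm_num at hnk
        subst hnk
        exact ⟨rfl, (hcardle (hRH.trans h.le)).trans (card_symp_four hR₀ hZ hc)⟩
      · exfalso
        norm_num at hnk h1
        have h2 : u = 8 ∨ u = 9 := by omega
        rcases h2 with rfl | rfl
        · exact absurd hu (by norm_num)
        · exact absurd hu (by norm_num)
  · -- tensor powers
    exfalso
    have hM : R ≤ tensorWreathSubgroup m t e P := hRH.trans (h.le.trans inf_le_left)
    have h8 : m ^ 2 ≤ m ^ t := Nat.pow_le_pow_right (by omega) ht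
    have h9 : 3 * m ≤ m ^ 2 := by rw [pow_two]; exact Nat.mul_le_mul_right m hm
    rcases wreath _ _ hu hFd (hdvd hM) with h6 | h6
    · have : t < m ^ t := Nat.lt_pow_self (by omega)
      omega
    · rw [Nat.card_eq_fintype_card] at h6
      have h7 := le_of_div hP h6
      omega
  · -- symplectic forms
    right; left; right; left
    have hM : R ≤ similarityGroup g := hRH.trans (h.le.trans inf_le_left)
    have h1 := even_of_bilinear hP (by omega) (by rw [Fintype.card_fin]; omega) hxu' hg.bilinear hg.nondegenerate (hM x.2)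
    exact ⟨h1, by rwa [Fintype.card_fin], g, hg, hM⟩
  · -- unitary forms
    right; left; right; right; right
    have hM : R ≤ similarityGroup g := hRH.trans (h.le.trans inf_le_left)
    obtain ⟨p', k', hp', hpF, hF', hσ⟩ := exists_frobenius hg.ne_refl hg.involutive
    haveI : Fact p'.Prime := ⟨hp'⟩
    have hpp : p = p' := by
      have h1 : p ∣ (p' ^ k') ^ 2 := by
        rw [← hF', hF]
        exact dvd_pow_self p (by omega)
      exact (Nat.prime_dvd_prime_iff_eq hp hp').1 (hp.dvd_of_dvd_pow (hp.dvd_of_dvd_pow h1))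
    subst hpp
    have hfk' : k' * 2 = f := by
      have h3 : p ^ (k' * 2) = p ^ f := by rw [pow_mul, ← hF', hF]
      exact Nat.pow_right_injective hp.two_le h3
    have hk'0 : 0 < k' := by omega
    have hPk : Ppd (p ^ k') (2 * k) u := by
      have h1 := hP0.pow k' (by omega)
      rw [← hfk', mul_assoc, Nat.gcd_comm, Nat.gcd_mul_right_right, Nat.mul_div_cancel_left _ hk'0] at h1
      exact h1
    have h1 := odd_of_unitary hF' hPk (by omega) (by rw [Fintype.card_fin]; omega) hxu' hσ hg (hM x.2)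
    exact ⟨h1, σ, g, hg, hM⟩
  · -- quadratic forms
    right; left; right; right; left
    have hM : R ≤ quadSimilarityGroup Q := hRH.trans (h.le.trans inf_le_left)
    have h1 := even_of_quadratic hP (by omega) (by rw [Fintype.card_fin]; omega) hxu' hQ (hM x.2)
    exact ⟨h1, Q, hQ, hM⟩
  · -- residual groups
    exact Or.inr (Or.inr (Or.inr (Or.inr ⟨H, hH, hRH, h⟩)))

end Cfsg.Agent.H592.Rl
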